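import Mathlib

set_option autoImplicit false

namespace Cfsg.Agent.Helper29.Zas

/-- The candidate for the involution-like element `t`, as a function on `[0, p]` (`p` encodes `∞`). -/
def candN (p r ninv k c d m : ℕ) : ℕ :=
  if m = p then 0 else if m = 0 then p else
    if m ^ r % p = 1 then (m ^ k * c) % p else ((m * ninv) ^ k * d) % p

def tab (p : ℕ) (f : ℕ → ℕ) : List ℕ := (List.range (p + 1)).map f

def look (L : List ℕ) (m : ℕ) : ℕ := L.getD m 0

def UN (p i m : ℕ) : ℕ := if m = p then p else (m + i) % p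

def HN (p a m : ℕ) : ℕ := if m = p then p else (a * m) % p

/-- The word `h_a ∘ f ∘ u^i ∘ (f ∘ u^j)?`. -/
def wordN (p : ℕ) (L : List ℕ) (a i j : ℕ) (two : Bool) (m : ℕ) : ℕ :=
  HN p a (look L (UN p i (if two then look L (UN p j m) else m)))

def fixCount (p : ℕ) (g : ℕ → ℕ) : ℕ :=
  ((List.range (p + 1)).filter (fun m => g m == m)).length

def goodN (p r : ℕ) (g : ℕ → ℕ) : Bool :=
  (fixCount p g == p + 1) ||
    (Nat.ble (fixCount p g) 2 &&
      (!(fixCount p g == 2) || (List.range (p + 1)).all (fun m => g^[r] m == m)))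

def testN (p r : ℕ) (L : List ℕ) (tst : ℕ × ℕ × ℕ × Bool × ℕ) : Bool :=
  goodN p r (fun m => (wordN p L tst.1 tst.2.1 tst.2.2.1 tst.2.2.2.1)^[tst.2.2.2.2] m)

def c1N (p r : ℕ) (L : List ℕ) : Bool :=
  (look L (look L 1) ^ r % p == 1) &&
    (List.range (p + 1)).all fun m =>
      m == 0 || m == p || look L (look L m) == (look L (look L 1) * m) % p

def validN (p r : ℕ) (L : List ℕ) : Bool :=
  ((p - look L 1) ^ r % p == 1) &&
    (List.range (p + 1)).all fun m => m == 0 || m == p || (look L m * m) % p == look L 1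

def chk (p r ninv : ℕ) (tests : List (ℕ × ℕ × ℕ × Bool × ℕ)) (k c d : ℕ) : Bool :=
  !(c1N p r (tab p (candN p r ninv k c d)) && tests.all (testN p r (tab p (candN p r ninv k c d))))
    || validN p r (tab p (candN p r ninv k c d))

def allChk (p r ninv : ℕ) (tests : List (ℕ × ℕ × ℕ × Bool × ℕ)) (excl : List ℕ) : Bool :=
  (List.range r).all fun k => excl.contains k ||
    (List.range p).all fun c => (List.range p).all fun d =>
      c == 0 || d == 0 || chk p r ninv tests k c d

end Cfsg.Agent.Helper29.Zas
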