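import Mathlib

set_option autoImplicit false

namespace Cfsg.Agent.Helper29.Zas

variable (p : ℕ) [Fact p.Prime]

/-- `x ↦ x + b` on the projective line `Option (ZMod p)`. -/
def Upow (b : ZMod p) : Equiv.Perm (Option (ZMod p)) := Equiv.optionCongr (Equiv.addRight b)

/-- `x ↦ x + 1`. -/
def Uperm : Equiv.Perm (Option (ZMod p)) := Upow p 1

/-- `x ↦ a x`. -/
def Hperm (a : (ZMod p)ˣ) : Equiv.Perm (Option (ZMod p)) := Equiv.optionCongr (Units.mulLeft a)

@[simp] theorem Upow_none (b : ZMod p) : Upow p b none = none := rfl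
@[simp] theorem Upow_some (b x : ZMod p) : Upow p b (some x) = some (x + b) := rfl
@[simp] theorem Hperm_none (a : (ZMod p)ˣ) : Hperm p a none = none := rfl
@[simp] theorem Hperm_some (a : (ZMod p)ˣ) (x : ZMod p) :
    Hperm p a (some x) = some ((a : ZMod p) * x) := rfl

theorem Upow_add (b c : ZMod p) : Upow p (b + c) = Upow p b * Upow p c := by
  refine Equiv.ext fun o => ?_
  cases o with
  | none => rfl
  | some x => simp [Equiv.Perm.mul_apply]; ring

theorem Upow_zero : Upow p 0 = 1 := by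
  refine Equiv.ext fun o => ?_
  cases o with
  | none => rfl
  | some x => simp

theorem Upow_natCast (n : ℕ) : Upow p (n : ZMod p) = Uperm p ^ n := by
  induction n with
  | zero => simp [Upow_zero]
  | succ k ih => rw [Nat.cast_succ, Upow_add, ih, pow_succ]; rfl

theorem Upow_eq_pow (b : ZMod p) : Upow p b = Uperm p ^ b.val := by
  rw [← Upow_natCast, ZMod.natCast_zmod_val]

theorem Hperm_mul (a b : (ZMod p)ˣ) : Hperm p (a * b) = Hperm p a * Hperm p b := by
  refine Equiv.ext fun o => ?_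
  cases o with
  | none => rfl
  | some x => simp [Equiv.Perm.mul_apply, mul_assoc]

theorem Hperm_one : Hperm p 1 = 1 := by
  refine Equiv.ext fun o => ?_
  cases o with
  | none => rfl
  | some x => simp

theorem Hperm_pow (a : (ZMod p)ˣ) (n : ℕ) : Hperm p (a ^ n) = Hperm p a ^ n := by
  induction n with
  | zero => simp [Hperm_one]
  | succ k ih => rw [pow_succ, Hperm_mul, ih, pow_succ]

theorem Hperm_injective : Function.Injective (Hperm p) := by
  intro a b h
  have := congrArg (fun g => g (some 1)) h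
  simp only [Hperm_some, mul_one, Option.some.injEq] at this
  exact Units.ext this

theorem Hperm_comm (a b : (ZMod p)ˣ) : Hperm p a * Hperm p b = Hperm p b * Hperm p a := by
  rw [← Hperm_mul, ← Hperm_mul, mul_comm]

/-- `x ↦ c / x`. -/
def Tperm (c : (ZMod p)ˣ) : Equiv.Perm (Option (ZMod p)) :=
  Function.Involutive.toPerm
    (fun o => match o with
      | none => some 0
      | some x => if x = 0 then none else some ((c : ZMod p) * x⁻¹))
    (by
      intro o
      cases o with
      | none => simp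
      | some x =>
        by_cases hx : x = 0
        · simp [hx]
        · have hc : (c : ZMod p) ≠ 0 := c.ne_zero
          simp only [hx, if_false, mul_eq_zero, hc, inv_eq_zero, or_self]
          congr 1
          field_simp)

@[simp] theorem Tperm_none (c : (ZMod p)ˣ) : Tperm p c none = some 0 := rfl
@[simp] theorem Tperm_zero (c : (ZMod p)ˣ) : Tperm p c (some 0) = none := by
  simp [Tperm, Function.Involutive.toPerm]
theorem Tperm_some (c : (ZMod p)ˣ) {x : ZMod p} (hx : x ≠ 0) :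
    Tperm p c (some x) = some ((c : ZMod p) * x⁻¹) := by
  simp [Tperm, Function.Involutive.toPerm, hx]

/-- The model group. -/
def L0 (r : ℕ) : Subgroup (Equiv.Perm (Option (ZMod p))) :=
  Subgroup.closure ({Uperm p, Tperm p (-1)} ∪ {g | ∃ a : (ZMod p)ˣ, a ^ r = 1 ∧ g = Hperm p a})

/-- The data extracted from a simple group of order `(p+1)p(p-1)/2` acting on its Sylow
`p`-subgroups. -/
structure Zdata (r : ℕ) (R : Subgroup (Equiv.Perm (Option (ZMod p)))) : Prop where
  U_mem : Uperm p ∈ R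
  stab : ∀ g ∈ R, g none = none → g (some 0) = some 0 →
    ∃ a : (ZMod p)ˣ, a ^ r = 1 ∧ g = Hperm p a
  H_mem : ∀ a : (ZMod p)ˣ, a ^ r = 1 → Hperm p a ∈ R
  ex_t : ∃ t ∈ R, t none = some 0 ∧ t (some 0) = none

namespace Zdata

variable {p} {r : ℕ} {R : Subgroup (Equiv.Perm (Option (ZMod p)))} (hR : Zdata p r R)
include hR

theorem Upow_mem (b : ZMod p) : Upow p b ∈ R := by
  rw [Upow_eq_pow]; exact R.pow_mem hR.U_mem _

/-- Two-transitivity in the form we need. -/
theorem move {x y : Option (ZMod p)} (hxy : x ≠ y) : ∃ k ∈ R, k x = none ∧ k y = some 0 := by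
  obtain ⟨t, ht, ht1, ht2⟩ := hR.ex_t
  have hti : t⁻¹ (some 0) = none := by rw [Equiv.Perm.inv_eq_iff_eq]; exact ht1.symm
  -- first move `x` to `none`
  obtain ⟨k1, hk1, hk1x⟩ : ∃ k1 ∈ R, k1 x = none := by
    cases x with
    | none => exact ⟨1, R.one_mem, rfl⟩
    | some b =>
      refine ⟨t⁻¹ * Upow p (-b), R.mul_mem (R.inv_mem ht) (hR.Upow_mem _), ?_⟩
      simp [Equiv.Perm.mul_apply, hti]
  have hne : k1 y ≠ none := by
    intro h; exact hxy (k1.injective (hk1x.trans h.symm))
  obtain ⟨b', hb'⟩ := Option.ne_none_iff_exists'.mp hne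
  refine ⟨Upow p (-b') * k1, R.mul_mem (hR.Upow_mem _) hk1, ?_, ?_⟩
  · simp [Equiv.Perm.mul_apply, hk1x]
  · simp [Equiv.Perm.mul_apply, hb']

theorem three {g : Equiv.Perm (Option (ZMod p))} (hg : g ∈ R) {x y z : Option (ZMod p)}
    (hxy : x ≠ y) (hxz : x ≠ z) (hyz : y ≠ z) (hx : g x = x) (hy : g y = y) (hz : g z = z) :
    g = 1 := by
  obtain ⟨k, hk, hkx, hky⟩ := hR.move hxy
  have hg' : k * g * k⁻¹ ∈ R := R.mul_mem (R.mul_mem hk hg) (R.inv_mem hk)
  have h1 : (k * g * k⁻¹) none = none := by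
    rw [← hkx]; simp [Equiv.Perm.mul_apply, hx]
  have h2 : (k * g * k⁻¹) (some 0) = some 0 := by
    rw [← hky]; simp [Equiv.Perm.mul_apply, hy]
  obtain ⟨a, -, ha⟩ := hR.stab _ hg' h1 h2
  have hkz1 : k z ≠ none := fun h => hxz (k.injective (hkx.trans h.symm))
  obtain ⟨w, hw⟩ := Option.ne_none_iff_exists'.mp hkz1
  have hw0 : w ≠ 0 := by
    rintro rfl; exact hyz (k.injective (hky.trans hw.symm))
  have h3 : (k * g * k⁻¹) (some w) = some w := by
    rw [← hw]; simp [Equiv.Perm.mul_apply, hz]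
  rw [ha, Hperm_some, Option.some.injEq] at h3
  have ha1 : a = 1 := by
    apply Units.ext
    have : ((a : ZMod p) - 1) * w = 0 := by rw [sub_mul, h3, one_mul, sub_self]
    rcases mul_eq_zero.mp this with h | h
    · simpa [sub_eq_zero] using h
    · exact absurd h hw0
  rw [ha1, Hperm_one] at ha
  have : g = k⁻¹ * (k * g * k⁻¹) * k := by group
  rw [this, ha]; group

theorem two {g : Equiv.Perm (Option (ZMod p))} (hg : g ∈ R) {x y : Option (ZMod p)}
    (hxy : x ≠ y) (hx : g x = x) (hy : g y = y) : g ^ r = 1 := by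
  obtain ⟨k, hk, hkx, hky⟩ := hR.move hxy
  have hg' : k * g * k⁻¹ ∈ R := R.mul_mem (R.mul_mem hk hg) (R.inv_mem hk)
  have h1 : (k * g * k⁻¹) none = none := by
    rw [← hkx]; simp [Equiv.Perm.mul_apply, hx]
  have h2 : (k * g * k⁻¹) (some 0) = some 0 := by
    rw [← hky]; simp [Equiv.Perm.mul_apply, hy]
  obtain ⟨a, har, ha⟩ := hR.stab _ hg' h1 h2
  have h3 : (k * g * k⁻¹) ^ r = 1 := by rw [ha, ← Hperm_pow, har, Hperm_one]
  rw [conj_pow] at h3
  have : g ^ r = k⁻¹ * (k * g ^ r * k⁻¹) * k := by group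
  rw [this, h3]; group

theorem stab_none {g : Equiv.Perm (Option (ZMod p))} (hg : g ∈ R) (h : g none = none) :
    ∃ (b : ZMod p) (a : (ZMod p)ˣ), a ^ r = 1 ∧ g = Upow p b * Hperm p a := by
  have hne : g (some 0) ≠ none := fun h' => by
    have := g.injective (h'.trans h.symm); simp at this
  obtain ⟨b, hb⟩ := Option.ne_none_iff_exists'.mp hne
  have hg' : Upow p (-b) * g ∈ R := R.mul_mem (hR.Upow_mem _) hg
  obtain ⟨a, har, ha⟩ := hR.stab _ hg' (by simp [Equiv.Perm.mul_apply, h])
    (by simp [Equiv.Perm.mul_apply, hb])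
  refine ⟨b, a, har, ?_⟩
  rw [← ha, ← mul_assoc, ← Upow_add, add_neg_cancel, Upow_zero, one_mul]

theorem gen {t : Equiv.Perm (Option (ZMod p))} (ht : t ∈ R) (ht1 : t none = some 0) :
    R ≤ Subgroup.closure ({Uperm p, t} ∪ {g | ∃ a : (ZMod p)ˣ, a ^ r = 1 ∧ g = Hperm p a}) := by
  set C := Subgroup.closure ({Uperm p, t} ∪ {g | ∃ a : (ZMod p)ˣ, a ^ r = 1 ∧ g = Hperm p a})
    with hC
  have hU : ∀ b : ZMod p, Upow p b ∈ C := fun b => by
    rw [Upow_eq_pow]
    exact C.pow_mem (Subgroup.subset_closure (Or.inl (by simp))) _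
  have hT : t ∈ C := Subgroup.subset_closure (Or.inl (by simp))
  have hH : ∀ a : (ZMod p)ˣ, a ^ r = 1 → Hperm p a ∈ C := fun a ha =>
    Subgroup.subset_closure (Or.inr ⟨a, ha, rfl⟩)
  have hcase1 : ∀ g ∈ R, g none = none → g ∈ C := by
    intro g hg h
    obtain ⟨b, a, har, rfl⟩ := hR.stab_none hg h
    exact C.mul_mem (hU b) (hH a har)
  intro g hg
  by_cases h : g none = none
  · exact hcase1 g hg h
  · obtain ⟨b, hb⟩ := Option.ne_none_iff_exists'.mp h
    have hti : t⁻¹ (some 0) = none := by rw [Equiv.Perm.inv_eq_iff_eq]; exact ht1.symm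
    have hg' : t⁻¹ * Upow p (-b) * g ∈ R :=
      R.mul_mem (R.mul_mem (R.inv_mem ht) (hR.Upow_mem _)) hg
    have h1 := hcase1 _ hg' (by simp [Equiv.Perm.mul_apply, hb, hti])
    have : g = Upow p b * t * (t⁻¹ * Upow p (-b) * g) := by
      have hUU : Upow p b * Upow p (-b) = 1 := by rw [← Upow_add, add_neg_cancel, Upow_zero]
      calc g = (Upow p b * Upow p (-b)) * g := by rw [hUU, one_mul]
        _ = Upow p b * t * (t⁻¹ * Upow p (-b) * g) := by group
    rw [this]
    exact C.mul_mem (C.mul_mem (hU b) hT) h1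

end Zdata

end Cfsg.Agent.Helper29.Zas
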