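import Mathlib
import Cfsg.Agent.Helper29.Zas.Perm
import Cfsg.Agent.Helper29.Zas.Check

set_option autoImplicit false

namespace Cfsg.Agent.Helper29.Zas

variable (p : ℕ) [Fact p.Prime]

def enc : Option (ZMod p) → ℕ
  | none => p
  | some x => x.val

def dec (m : ℕ) : Option (ZMod p) := if m = p then none else some (m : ZMod p)

theorem enc_le (x : Option (ZMod p)) : enc p x ≤ p := by
  cases x with
  | none => exact le_refl p
  | some x => exact (ZMod.val_lt x).le

theorem enc_dec {m : ℕ} (hm : m ≤ p) : enc p (dec p m) = m := by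
  unfold dec
  split_ifs with h
  · exact h.symm
  · show ((m : ZMod p)).val = m
    rw [ZMod.val_natCast]; exact Nat.mod_eq_of_lt (lt_of_le_of_ne hm h)

theorem dec_enc (x : Option (ZMod p)) : dec p (enc p x) = x := by
  cases x with
  | none => simp [enc, dec]
  | some x =>
    have : x.val ≠ p := (ZMod.val_lt x).ne
    simp [enc, dec, this]

theorem dec_inj {m m' : ℕ} (hm : m ≤ p) (hm' : m' ≤ p) (h : dec p m = dec p m') : m = m' := by
  rw [← enc_dec p hm, ← enc_dec p hm', h]

theorem dec_of_lt {m : ℕ} (hm : m < p) : dec p m = some (m : ZMod p) := by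
  unfold dec; rw [if_neg hm.ne]

theorem dec_self : dec p p = none := by unfold dec; rw [if_pos rfl]

/-- The `ℕ`-level function of a permutation. -/
def gN (g : Equiv.Perm (Option (ZMod p))) (m : ℕ) : ℕ := enc p (g (dec p m))

theorem gN_le (g : Equiv.Perm (Option (ZMod p))) (m : ℕ) : gN p g m ≤ p := enc_le p _

theorem gN_mul (g h : Equiv.Perm (Option (ZMod p))) (m : ℕ) :
    gN p (g * h) m = gN p g (gN p h m) := by
  simp [gN, dec_enc, Equiv.Perm.mul_apply]

theorem gN_one {m : ℕ} (hm : m ≤ p) : gN p 1 m = m := by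
  simp [gN, enc_dec p hm]

theorem gN_pow (g : Equiv.Perm (Option (ZMod p))) (q : ℕ) :
    ∀ m, m ≤ p → gN p (g ^ q) m = (gN p g)^[q] m := by
  induction q with
  | zero => intro m hm; simp [gN, enc_dec p hm]
  | succ k ih =>
    intro m hm
    rw [pow_succ, gN_mul, Function.iterate_succ_apply]
    exact ih _ (gN_le p g m)

theorem gN_fix (g : Equiv.Perm (Option (ZMod p))) {m : ℕ} (hm : m ≤ p) :
    gN p g m = m ↔ g (dec p m) = dec p m := by
  constructor
  · intro h; have := congrArg (dec p) h; rwa [gN, dec_enc] at this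
  · intro h; rw [gN, h, enc_dec p hm]

theorem gN_Upow (i : ℕ) (m : ℕ) : gN p (Upow p (i : ZMod p)) m = UN p i m := by
  unfold gN dec UN
  split_ifs with h
  · rfl
  · show ((m : ZMod p) + (i : ZMod p)).val = (m + i) % p
    rw [← Nat.cast_add, ZMod.val_natCast]

theorem gN_Hperm (a : (ZMod p)ˣ) (a' : ℕ) (ha : ((a' : ℕ) : ZMod p) = a) (m : ℕ) :
    gN p (Hperm p a) m = HN p a' m := by
  unfold gN dec HN
  split_ifs with h
  · rfl
  · show ((a : ZMod p) * (m : ZMod p)).val = (a' * m) % p
    rw [← ha, ← Nat.cast_mul, ZMod.val_natCast]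

theorem natCast_pow_eq_one_iff (x r : ℕ) : x ^ r % p = 1 ↔ ((x : ZMod p)) ^ r = 1 := by
  have hp := (Fact.out : p.Prime)
  rw [← Nat.cast_pow, ← Nat.cast_one (R := ZMod p), ZMod.natCast_eq_natCast_iff',
    Nat.mod_eq_of_lt hp.one_lt]

theorem look_tab (f : ℕ → ℕ) {m : ℕ} (hm : m ≤ p) : look (tab p f) m = f m := by
  have hm' : m < p + 1 := by omega
  simp [look, tab, List.getD_eq_getElem?_getD, List.getElem?_range, hm']

theorem iter_congr (f f' : ℕ → ℕ) (h : ∀ m ≤ p, f m = f' m) (h' : ∀ m, f' m ≤ p) :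
    ∀ q m, m ≤ p → f^[q] m = f'^[q] m := by
  intro q
  induction q with
  | zero => intro m _; rfl
  | succ k ih =>
    intro m hm
    rw [Function.iterate_succ_apply, Function.iterate_succ_apply, h m hm]
    exact ih _ (h' m)

theorem goodN_of {r : ℕ} {R : Subgroup (Equiv.Perm (Option (ZMod p)))} (hR : Zdata p r R)
    {g : Equiv.Perm (Option (ZMod p))} (hg : g ∈ R) (f : ℕ → ℕ)
    (hf : ∀ m ≤ p, f m = gN p g m) : goodN p r f = true := by
  have hfc : fixCount p f = fixCount p (gN p g) := by
    unfold fixCount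
    congr 1
    apply List.filter_congr
    intro m hm
    rw [hf m (by have := List.mem_range.mp hm; omega)]
  have hiter := iter_congr p f (gN p g) hf (gN_le p g)
  obtain ⟨Fx, hFx⟩ : ∃ L, L = (List.range (p + 1)).filter (fun m => gN p g m == m) := ⟨_, rfl⟩
  have hnd : Fx.Nodup := by rw [hFx]; exact List.Nodup.filter _ List.nodup_range
  have hmem : ∀ m ∈ Fx, m ≤ p ∧ g (dec p m) = dec p m := by
    intro m hm
    rw [hFx, List.mem_filter, List.mem_range] at hm
    have h1 : m ≤ p := by omega
    exact ⟨h1, (gN_fix p g h1).mp (by simpa using hm.2)⟩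
  have hc : fixCount p (gN p g) = Fx.length := by rw [hFx]; rfl
  have hall : g = 1 → fixCount p (gN p g) = p + 1 := by
    intro h1
    unfold fixCount
    rw [List.filter_eq_self.mpr, List.length_range]
    intro m hm
    have : m ≤ p := by have := List.mem_range.mp hm; omega
    simp [h1, gN, enc_dec p this]
  unfold goodN
  rw [hfc]
  rcases Fx with _ | ⟨a, _ | ⟨b, _ | ⟨c, l⟩⟩⟩
  · simp [hc]
  · simp [hc]
  · have ha := hmem a (by simp)
    have hb := hmem b (by simp)
    have hab : a ≠ b := by
      intro h; subst h; simp at hnd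
    have hdab : dec p a ≠ dec p b := fun h => hab (dec_inj p ha.1 hb.1 h)
    have hgr := hR.two hg hdab ha.2 hb.2
    have : (List.range (p + 1)).all (fun m => f^[r] m == m) = true := by
      rw [List.all_eq_true]
      intro m hm
      have hm' : m ≤ p := by have := List.mem_range.mp hm; omega
      rw [hiter r m hm', ← gN_pow p g r m hm', hgr]
      simp [gN, enc_dec p hm']
    simp [hc, this]
  · have ha := hmem a (by simp)
    have hb := hmem b (by simp)
    have hc' := hmem c (by simp)
    have hab : a ≠ b := by intro h; subst h; simp at hnd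
    have hac : a ≠ c := by intro h; subst h; simp at hnd
    have hbc : b ≠ c := by intro h; subst h; simp at hnd
    have h1 := hR.three hg (fun h => hab (dec_inj p ha.1 hb.1 h))
      (fun h => hac (dec_inj p ha.1 hc'.1 h)) (fun h => hbc (dec_inj p hb.1 hc'.1 h))
      ha.2 hb.2 hc'.2
    simp [hall h1]

end Cfsg.Agent.Helper29.Zas
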