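import Mathlib
import Cfsg.Agent.Helper29.Zas.Bridge

set_option autoImplicit false

namespace Cfsg.Agent.Helper29.Zas

/-- Numeric side conditions of a certificate. -/
def numOK (p r a0 n ninv : ℕ) (tests : List (ℕ × ℕ × ℕ × Bool × ℕ)) : Bool :=
  (a0 ^ r % p == 1) && ((n * ninv) % p == 1) &&
  ((List.range p).all fun x => x == 0 ||
     (if x ^ r % p = 1 then (List.range r).any fun i => x == a0 ^ i % p
      else (List.range r).any fun i => x == (n * a0 ^ i) % p)) &&
  (tests.all fun tst => tst.1 ^ r % p == 1)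

theorem numOK_spec {p r a0 n ninv : ℕ} {tests : List (ℕ × ℕ × ℕ × Bool × ℕ)}
    (h : numOK p r a0 n ninv tests = true) :
    a0 ^ r % p = 1 ∧ (n * ninv) % p = 1 ∧
    (∀ x, x < p → x ≠ 0 → x ^ r % p = 1 → ∃ i, i < r ∧ x = a0 ^ i % p) ∧
    (∀ x, x < p → x ≠ 0 → x ^ r % p ≠ 1 → ∃ i, i < r ∧ x = (n * a0 ^ i) % p) ∧
    (∀ tst ∈ tests, tst.1 ^ r % p = 1) := by
  simp only [numOK, Bool.and_eq_true, beq_iff_eq, List.all_eq_true, List.mem_range,
    Bool.or_eq_true] at h
  obtain ⟨⟨⟨h1, h2⟩, h3⟩, h4⟩ := h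
  refine ⟨h1, h2, ?_, ?_, h4⟩
  · intro x hx hx0 hx1
    have := h3 x hx
    rw [if_pos hx1] at this
    rcases this with h | h
    · exact absurd h hx0
    · simpa using h
  · intro x hx hx0 hx1
    have := h3 x hx
    rw [if_neg hx1] at this
    rcases this with h | h
    · exact absurd h hx0
    · simpa using h

variable (p : ℕ) [Fact p.Prime]

set_option maxHeartbeats 1600000 in
theorem R_eq_L0 (r a0 n ninv : ℕ) (tests : List (ℕ × ℕ × ℕ × Bool × ℕ)) (excl : List ℕ)
    (hr0 : 0 < r) (hp3 : 3 ≤ p)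
    (hchk : allChk p r ninv tests excl = true) (hnum : numOK p r a0 n ninv tests = true)
    {R : Subgroup (Equiv.Perm (Option (ZMod p)))} (hR : Zdata p r R)
    (hexcl : ∀ t ∈ R, t none = some 0 → t (some 0) = none → ∀ k ∈ excl,
        ∀ A0 : (ZMod p)ˣ, (A0 : ZMod p) = (a0 : ZMod p) → t * Hperm p A0 ≠ Hperm p (A0 ^ k) * t) :
    R = L0 p r := by
  classical
  have hp := (Fact.out : p.Prime)
  obtain ⟨ha0, hnn, hA, hB, htests⟩ := numOK_spec hnum
  -- the unit A0
  have hA0r : ((a0 : ℕ) : ZMod p) ^ r = 1 := (natCast_pow_eq_one_iff p a0 r).mp ha0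
  have hA0ne : ((a0 : ℕ) : ZMod p) ≠ 0 := by
    intro h; rw [h, zero_pow hr0.ne'] at hA0r; exact zero_ne_one hA0r
  set A0 : (ZMod p)ˣ := Units.mk0 _ hA0ne with hA0
  have hA0r' : A0 ^ r = 1 := by
    apply Units.ext; simp [hA0, hA0r]
  have hnn' : ((n : ℕ) : ZMod p) * (ninv : ZMod p) = 1 := by
    have : (((n * ninv : ℕ)) : ZMod p) = 1 := by
      rw [← ZMod.natCast_mod, hnn, Nat.cast_one]
    simpa using this
  have hn0 : ((n : ℕ) : ZMod p) ≠ 0 := by
    intro h; rw [h, zero_mul] at hnn'; exact zero_ne_one hnn'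
  obtain ⟨t, htR, ht1, ht2⟩ := hR.ex_t
  have hti0 : t⁻¹ (some 0) = none := by rw [Equiv.Perm.inv_eq_iff_eq]; exact ht1.symm
  have htin : t⁻¹ none = some 0 := by rw [Equiv.Perm.inv_eq_iff_eq]; exact ht2.symm
  -- conjugating `Hperm A0`
  have hconj : t * Hperm p A0 * t⁻¹ ∈ R :=
    R.mul_mem (R.mul_mem htR (hR.H_mem A0 hA0r')) (R.inv_mem htR)
  obtain ⟨B, hBr, hB'⟩ := hR.stab _ hconj
    (by simp [Equiv.Perm.mul_apply, htin, ht2]) (by simp [Equiv.Perm.mul_apply, hti0, ht1])
  have hBt : t * Hperm p A0 = Hperm p B * t := by rw [← hB']; group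
  -- `B = A0 ^ k`
  obtain ⟨k, hkr, hBk⟩ : ∃ k, k < r ∧ B = A0 ^ k := by
    have h1 : (B : ZMod p).val ^ r % p = 1 := by
      rw [natCast_pow_eq_one_iff, ZMod.natCast_zmod_val]
      have := congrArg Units.val hBr
      simpa using this
    have h0 : (B : ZMod p).val ≠ 0 := by
      rw [Ne, ZMod.val_eq_zero]; exact B.ne_zero
    obtain ⟨i, hi, hBi⟩ := hA _ (ZMod.val_lt _) h0 h1
    refine ⟨i, hi, Units.ext ?_⟩
    have : ((B : ZMod p).val : ZMod p) = ((a0 ^ i % p : ℕ) : ZMod p) := by rw [← hBi]
    rw [ZMod.natCast_zmod_val, ZMod.natCast_mod] at this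
    rw [this]; simp [hA0]
  have hkex : k ∉ excl := by
    intro hk
    apply hexcl t htR ht1 ht2 k hk A0 rfl
    rw [← hBk]; exact hBt
  -- the relation
  have hrel : ∀ i : ℕ, ∀ x y : ZMod p, t (some x) = some y →
      t (some ((A0 : ZMod p) ^ i * x)) = some ((B : ZMod p) ^ i * y) := by
    intro i
    induction i with
    | zero => intro x y h; simpa using h
    | succ j ih =>
      intro x y h
      have h1 := ih x y h
      have h2 := congrArg (fun g => g (some ((A0 : ZMod p) ^ j * x))) hBt
      simp only [Equiv.Perm.mul_apply, Hperm_some, h1] at h2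
      rw [pow_succ, pow_succ, mul_comm _ (A0 : ZMod p), mul_assoc, h2]
      congr 1; ring
  have hne : ∀ x : ZMod p, x ≠ 0 → ∃ y : ZMod p, y ≠ 0 ∧ t (some x) = some y := by
    intro x hx
    have h1 : t (some x) ≠ none := by
      intro h
      have := t.injective (h.trans ht2.symm)
      exact hx (Option.some_injective _ this)
    obtain ⟨y, hy⟩ := Option.ne_none_iff_exists'.mp h1
    refine ⟨y, ?_, hy⟩
    rintro rfl
    have := t.injective (hy.trans ht1.symm)
    simp at this
  obtain ⟨c, hc0, hc⟩ := hne 1 one_ne_zero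
  obtain ⟨d, hd0, hd⟩ := hne _ hn0
  have hcv0 : c.val ≠ 0 := by rw [Ne, ZMod.val_eq_zero]; exact hc0
  have hdv0 : d.val ≠ 0 := by rw [Ne, ZMod.val_eq_zero]; exact hd0
  -- closed form
  have hform : ∀ m, 0 < m → m < p →
      t (some (m : ZMod p)) = some ((candN p r ninv k c.val d.val m : ℕ) : ZMod p) := by
    intro m hm0 hmp
    unfold candN
    rw [if_neg hmp.ne, if_neg hm0.ne']
    by_cases hm1 : m ^ r % p = 1
    · rw [if_pos hm1]
      obtain ⟨i, hi, hmi⟩ := hA m hmp hm0.ne' hm1
      have hmc : (m : ZMod p) = (A0 : ZMod p) ^ i * 1 := by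
        have : (m : ZMod p) = ((a0 ^ i % p : ℕ) : ZMod p) := by rw [← hmi]
        rw [this, ZMod.natCast_mod]; simp [hA0]
      have h1 := hrel i 1 c hc
      rw [← hmc] at h1
      rw [h1, ZMod.natCast_mod]
      congr 1
      rw [hBk]
      push_cast
      rw [ZMod.natCast_zmod_val, hmc]
      ring
    · rw [if_neg hm1]
      obtain ⟨i, hi, hmi⟩ := hB m hmp hm0.ne' hm1
      have hmc : (m : ZMod p) = (A0 : ZMod p) ^ i * (n : ZMod p) := by
        have : (m : ZMod p) = (((n * a0 ^ i) % p : ℕ) : ZMod p) := by rw [← hmi]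
        rw [this, ZMod.natCast_mod]; simp [hA0]; ring
      have h1 := hrel i _ d hd
      rw [← hmc] at h1
      rw [h1, ZMod.natCast_mod]
      congr 1
      rw [hBk]
      push_cast
      rw [ZMod.natCast_zmod_val, hmc, mul_assoc, hnn', mul_one]
      ring
  -- table equality
  have hcand_lt : ∀ m, 0 < m → m < p → candN p r ninv k c.val d.val m < p := by
    intro m hm0 hmp
    unfold candN
    rw [if_neg hmp.ne, if_neg hm0.ne']
    split_ifs <;> exact Nat.mod_lt _ hp.pos
  have htab : tab p (gN p t) = tab p (candN p r ninv k c.val d.val) := by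
    unfold tab
    apply List.map_congr_left
    intro m hm
    have hm' : m ≤ p := by have := List.mem_range.mp hm; omega
    rcases Nat.lt_or_ge m p with hlt | hge
    · rcases Nat.eq_zero_or_pos m with h0 | hpos
      · subst h0
        have : dec p 0 = some 0 := by rw [dec_of_lt p hp.pos]; simp
        simp [gN, this, ht2, enc, candN, hp.ne_zero.symm]
      · have : gN p t m = ((candN p r ninv k c.val d.val m : ℕ) : ZMod p).val := by
          unfold gN
          rw [dec_of_lt p hlt, hform m hpos hlt]; rfl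
        rw [this, ZMod.val_natCast, Nat.mod_eq_of_lt (hcand_lt m hpos hlt)]
    · have : m = p := le_antisymm hm' hge
      subst this
      simp [gN, dec_self, ht1, enc, candN]
  -- the check
  have hchk' : chk p r ninv tests k c.val d.val = true := by
    unfold allChk at hchk
    rw [List.all_eq_true] at hchk
    have h1 := hchk k (List.mem_range.mpr hkr)
    rw [Bool.or_eq_true] at h1
    rcases h1 with h1 | h1
    · exact absurd (by simpa using h1) hkex
    · rw [List.all_eq_true] at h1
      have h2 := h1 c.val (List.mem_range.mpr (ZMod.val_lt c))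
      rw [List.all_eq_true] at h2
      have h3 := h2 d.val (List.mem_range.mpr (ZMod.val_lt d))
      simpa [hcv0, hdv0] using h3
  set L := tab p (gN p t) with hL
  have hlook : ∀ m, m ≤ p → look L m = gN p t m := fun m hm => look_tab p _ hm
  -- `c1N`
  have hc1 : c1N p r L = true := by
    have htt : t * t ∈ R := R.mul_mem htR htR
    obtain ⟨E, hEr, hE⟩ := hR.stab _ htt (by simp [Equiv.Perm.mul_apply, ht1, ht2])
      (by simp [Equiv.Perm.mul_apply, ht1, ht2])
    have h2 : ∀ m, m ≤ p → look L (look L m) = HN p (E : ZMod p).val m := by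
      intro m hm
      rw [hlook m hm, hlook _ (gN_le p t m), ← gN_mul, hE]
      exact gN_Hperm p E _ (ZMod.natCast_zmod_val _) m
    have hp1 : (1 : ℕ) ≤ p := hp.one_lt.le
    have h3 : look L (look L 1) = (E : ZMod p).val := by
      rw [h2 1 hp1]
      unfold HN
      rw [if_neg hp.one_lt.ne, mul_one, Nat.mod_eq_of_lt (ZMod.val_lt _)]
    unfold c1N
    rw [Bool.and_eq_true]
    constructor
    · rw [h3, beq_iff_eq, natCast_pow_eq_one_iff, ZMod.natCast_zmod_val]
      have := congrArg Units.val hEr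
      simpa using this
    · rw [List.all_eq_true]
      intro m hm
      have hm' : m ≤ p := by have := List.mem_range.mp hm; omega
      by_cases hm0 : m = 0
      · simp [hm0]
      by_cases hmp : m = p
      · simp [hmp]
      · rw [h2 m hm', h3]
        unfold HN
        rw [if_neg hmp]
        simp
  -- the tests
  have htest : ∀ tst ∈ tests, testN p r L tst = true := by
    rintro ⟨a, i, j, two, q⟩ htst
    have har : a ^ r % p = 1 := htests _ htst
    have har' : ((a : ℕ) : ZMod p) ^ r = 1 := (natCast_pow_eq_one_iff p a r).mp har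
    have hane : ((a : ℕ) : ZMod p) ≠ 0 := by
      intro h; rw [h, zero_pow hr0.ne'] at har'; exact zero_ne_one har'
    set Aa : (ZMod p)ˣ := Units.mk0 _ hane with hAa
    have hAar : Aa ^ r = 1 := by apply Units.ext; simp [hAa, har']
    set rest : Equiv.Perm (Option (ZMod p)) := if two then t * Upow p (j : ZMod p) else 1
      with hrest
    have hrestR : rest ∈ R := by
      rw [hrest]; split_ifs
      · exact R.mul_mem htR (hR.Upow_mem _)
      · exact R.one_mem
    set w : Equiv.Perm (Option (ZMod p)) := Hperm p Aa * t * Upow p (i : ZMod p) * rest with hw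
    have hwR : w ∈ R :=
      R.mul_mem (R.mul_mem (R.mul_mem (hR.H_mem Aa hAar) htR) (hR.Upow_mem _)) hrestR
    have hword : ∀ m, m ≤ p → wordN p L a i j two m = gN p w m := by
      intro m hm
      have hrestN : gN p rest m = (if two then look L (UN p j m) else m) := by
        rw [hrest]
        split_ifs with h2
        · rw [gN_mul, gN_Upow, hlook _ (by rw [← gN_Upow]; exact gN_le p _ m)]
        · exact gN_one p hm
      rw [hw, gN_mul, gN_mul, gN_mul, hrestN, gN_Upow, gN_Hperm p Aa a rfl]
      unfold wordN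
      rw [hlook _ (by rw [← gN_Upow]; exact gN_le p _ _)]
    show goodN p r (fun m => (wordN p L a i j two)^[q] m) = true
    apply goodN_of p hR (R.pow_mem hwR q)
    intro m hm
    rw [gN_pow p w q m hm]
    exact iter_congr p _ _ hword (gN_le p w) q m hm
  -- validity
  have hvalid : validN p r L = true := by
    unfold chk at hchk'
    rw [← htab] at hchk'
    rw [Bool.or_eq_true] at hchk'
    rcases hchk' with h | h
    · exfalso
      have h5 : (c1N p r L && tests.all (testN p r L)) = true := by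
        rw [Bool.and_eq_true, List.all_eq_true]; exact ⟨hc1, htest⟩
      rw [h5] at h; simp at h
    · exact h
  unfold validN at hvalid
  rw [Bool.and_eq_true, List.all_eq_true] at hvalid
  obtain ⟨hv1, hv2⟩ := hvalid
  have hp1 : (1 : ℕ) ≤ p := hp.one_lt.le
  have hl1 : look L 1 = c.val := by
    rw [hlook 1 hp1]
    unfold gN
    rw [dec_of_lt p hp.one_lt, Nat.cast_one, hc]; rfl
  -- `(-c)^r = 1`
  have hnegc : (-c) ^ r = 1 := by
    rw [hl1, beq_iff_eq, natCast_pow_eq_one_iff, Nat.cast_sub (ZMod.val_lt c).le,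
      ZMod.natCast_self, zero_sub, ZMod.natCast_zmod_val] at hv1
    exact hv1
  -- `t = Tperm C`
  set C : (ZMod p)ˣ := Units.mk0 c hc0 with hC
  have hty : ∀ x y : ZMod p, x ≠ 0 → t (some x) = some y → y = c * x⁻¹ := by
    intro x y hx hxy
    have hxv : x.val < p := ZMod.val_lt x
    have hxv0 : x.val ≠ 0 := by rw [Ne, ZMod.val_eq_zero]; exact hx
    have h1 := hv2 x.val (List.mem_range.mpr (by omega))
    have h2 : look L x.val = y.val := by
      rw [hlook _ hxv.le]
      unfold gN
      rw [dec_of_lt p hxv, ZMod.natCast_zmod_val, hxy]; rfl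
    rw [h2, hl1] at h1
    have h3 : (y.val * x.val) % p = c.val := by
      simpa [hxv0, hxv.ne] using h1
    have h4 : y * x = c := by
      have := congrArg (fun z : ℕ => (z : ZMod p)) h3
      simp only [ZMod.natCast_mod, Nat.cast_mul, ZMod.natCast_zmod_val] at this
      exact this
    rw [← h4]; field_simp
  have htC : t = Tperm p C := by
    refine Equiv.ext fun o => ?_
    cases o with
    | none => rw [ht1, Tperm_none]
    | some x =>
      by_cases hx : x = 0
      · subst hx; rw [ht2, Tperm_zero]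
      · obtain ⟨y, -, hy⟩ := hne x hx
        rw [hy, Tperm_some p C hx, hty x y hx hy]
        rfl
  -- `Tperm (-1) ∈ R`
  have hCr : ((-C)⁻¹ : (ZMod p)ˣ) ^ r = 1 := by
    rw [inv_pow, inv_eq_one]
    apply Units.ext
    simpa [hC] using hnegc
  have hT0 : Tperm p (-1) * Hperm p ((-C)⁻¹) = Tperm p C := by
    refine Equiv.ext fun o => ?_
    cases o with
    | none => rw [Equiv.Perm.mul_apply, Hperm_none, Tperm_none, Tperm_none]
    | some x =>
      by_cases hx : x = 0
      · subst hx; rw [Equiv.Perm.mul_apply, Hperm_some, mul_zero, Tperm_zero, Tperm_zero]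
      · have hx' : (((-C)⁻¹ : (ZMod p)ˣ) : ZMod p) * x ≠ 0 :=
          mul_ne_zero (Units.ne_zero _) hx
        rw [Equiv.Perm.mul_apply, Hperm_some, Tperm_some p _ hx', Tperm_some p C hx]
        congr 1
        simp only [Units.val_neg, Units.val_one, Units.val_inv_eq_inv_val, hC, Units.val_mk0]
        field_simp
  have hT0R : Tperm p (-1) ∈ R := by
    have : Tperm p (-1) = t * (Hperm p ((-C)⁻¹))⁻¹ := by rw [htC, ← hT0]; group
    rw [this]
    exact R.mul_mem htR (R.inv_mem (hR.H_mem _ hCr))
  apply le_antisymm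
  · exact hR.gen hT0R (Tperm_none p _)
  · unfold L0
    rw [Subgroup.closure_le]
    rintro g (hg | ⟨a, ha, rfl⟩)
    · rcases hg with rfl | rfl
      · exact hR.U_mem
      · exact hT0R
    · exact hR.H_mem a ha

end Cfsg.Agent.Helper29.Zas
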