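import Mathlib
import Cfsg.Agent.Helper29.Zas.Perm

set_option autoImplicit false

namespace Cfsg.Agent.Helper29.Zas

open MulAction

theorem card_sylow_sub (p : ℕ) [Fact p.Prime] {G : Type*} [Group G] [Finite G] (r : ℕ)
    (hr0 : 0 < r) (hrp : r < p) (hcard : Nat.card G = (p + 1) * (p * r)) (P : Sylow p G) :
    Nat.card (P : Subgroup G) = p := by
  have hp := (Fact.out : p.Prime)
  rw [Sylow.card_eq_multiplicity, hcard]
  have h1 : ¬ p ∣ p + 1 := by
    intro h
    have := (Nat.dvd_add_right (dvd_refl p)).mp h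
    exact hp.one_lt.ne' (Nat.dvd_one.mp this)
  have h2 : ¬ p ∣ r := fun h => by have := Nat.le_of_dvd hr0 h; omega
  rw [Nat.factorization_mul (by omega) (Nat.mul_ne_zero hp.ne_zero hr0.ne'),
    Nat.factorization_mul hp.ne_zero hr0.ne']
  simp [Nat.factorization_eq_zero_of_not_dvd h1, Nat.factorization_eq_zero_of_not_dvd h2,
    hp.factorization_self]

set_option maxHeartbeats 1600000 in
theorem setup (p : ℕ) [hpf : Fact p.Prime] (r : ℕ) (hr0 : 0 < r) (hr : 2 * r + 1 = p)
    {G : Type*} [Group G] [Finite G] [IsSimpleGroup G]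
    (hcard : Nat.card G = (p + 1) * (p * r))
    (hsyl : Nat.card (Sylow p G) = p + 1) :
    ∃ φ : G →* Equiv.Perm (Option (ZMod p)), Function.Injective φ ∧ Zdata p r φ.range := by
  classical
  have hp := hpf.out
  have hrp : r < p := by omega
  obtain ⟨P⟩ : Nonempty (Sylow p G) := inferInstance
  have hPcard : Nat.card (P : Subgroup G) = p := card_sylow_sub p r hr0 hrp hcard P
  -- fixed points of P
  have hfix : ∀ Q : Sylow p G, (∀ g ∈ (P : Subgroup G), g • Q = Q) → Q = P := by
    intro Q hQ
    have h1 : Q ∈ MulAction.fixedPoints (P : Subgroup G) (Sylow p G) := fun g => hQ g.1 g.2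
    rw [P.2.sylow_mem_fixedPoints_iff] at h1
    exact Sylow.ext (P.3 Q.2 h1)
  -- a generator
  have hP1 : ∃ u ∈ (P : Subgroup G), u ≠ 1 := by
    by_contra h
    push Not at h
    have : (P : Subgroup G) = ⊥ := (Subgroup.eq_bot_iff_forall _).mpr h
    rw [this, Subgroup.card_bot] at hPcard
    have := hp.two_le
    omega
  obtain ⟨u, huP, hu1⟩ := hP1
  have hup : u ^ p = 1 := by
    have := pow_card_eq_one' (G := (P : Subgroup G)) (x := ⟨u, huP⟩)
    rw [hPcard] at this
    exact congrArg Subtype.val this
  have hord : orderOf u = p := orderOf_eq_prime hup hu1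
  have hgenP : ∀ w ∈ (P : Subgroup G), w ≠ 1 → ∀ x ∈ (P : Subgroup G), ∃ k : ℤ, x = w ^ k := by
    intro w hw hw1 x hx
    have h1 : (⟨w, hw⟩ : (P : Subgroup G)) ≠ 1 := fun h => hw1 (congrArg Subtype.val h)
    have h2 := zpowers_eq_top_of_prime_card hPcard h1
    have h3 : (⟨x, hx⟩ : (P : Subgroup G)) ∈ Subgroup.zpowers (⟨w, hw⟩ : (P : Subgroup G)) := by
      rw [h2]; trivial
    obtain ⟨k, hk⟩ := Subgroup.mem_zpowers_iff.mp h3
    exact ⟨k, by have := congrArg Subtype.val hk; simpa using this.symm⟩
  have hL1 : ∀ w ∈ (P : Subgroup G), w ≠ 1 → ∀ Q : Sylow p G, w • Q = Q → Q = P := by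
    intro w hw hw1 Q hQ
    apply hfix
    intro g hg
    obtain ⟨k, rfl⟩ := hgenP w hw hw1 g hg
    have : w ∈ MulAction.stabilizer G Q := hQ
    exact (MulAction.stabilizer G Q).zpow_mem this k
  have hPP : ∀ g ∈ (P : Subgroup G), g • P = P := fun g hg =>
    Sylow.smul_eq_iff_mem_normalizer.mpr (Subgroup.le_normalizer hg)
  obtain ⟨Q0, hQ0⟩ : ∃ Q0 : Sylow p G, Q0 ≠ P := by
    have : Nontrivial (Sylow p G) := by
      rw [← Finite.one_lt_card_iff_nontrivial, hsyl]; omega
    exact exists_ne P
  -- ι
  set ι : ZMod p → G := fun i => u ^ i.val with hι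
  have hιP : ∀ i, ι i ∈ (P : Subgroup G) := fun i => (P : Subgroup G).pow_mem huP _
  have hιn : ∀ n : ℕ, ι (n : ZMod p) = u ^ n := by
    intro n
    simp only [hι, ZMod.val_natCast]
    rw [← hord, pow_mod_orderOf]
  have hι_add : ∀ i j, ι (i + j) = ι i * ι j := by
    intro i j
    have h1 := hιn (i.val + j.val)
    rw [Nat.cast_add, ZMod.natCast_zmod_val, ZMod.natCast_zmod_val] at h1
    rw [h1, pow_add]
  have hι0 : ι 0 = 1 := by simp [hι]
  have hι1 : ι 1 = u := by have := hιn 1; simpa using this
  have hι_inj : ∀ i j, ι i = ι j → i = j := by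
    intro i j h
    have h1 : i.val ≡ j.val [MOD p] := by
      have h0 := pow_eq_pow_iff_modEq.mp h
      rwa [hord] at h0
    exact ZMod.val_injective p (Nat.ModEq.eq_of_lt_of_lt h1 (ZMod.val_lt i) (ZMod.val_lt j))
  -- the point map
  set e0 : Option (ZMod p) → Sylow p G := fun o => o.elim P (fun i => ι i • Q0) with he0
  have he0_inj : Function.Injective e0 := by
    intro o1 o2 h
    cases o1 with
    | none =>
      cases o2 with
      | none => rfl
      | some j =>
        exfalso
        have h' : P = ι j • Q0 := h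
        have : Q0 = P := by
          have h2 : (ι j)⁻¹ • P = Q0 := by rw [h', inv_smul_smul]
          rw [← h2]
          exact hPP _ ((P : Subgroup G).inv_mem (hιP j))
        exact hQ0 this
    | some i =>
      cases o2 with
      | none =>
        exfalso
        have h' : ι i • Q0 = P := h
        have : Q0 = P := by
          have h2 : (ι i)⁻¹ • P = Q0 := by rw [← h', inv_smul_smul]
          rw [← h2]
          exact hPP _ ((P : Subgroup G).inv_mem (hιP i))
        exact hQ0 this
      | some j =>
        have h' : ι i • Q0 = ι j • Q0 := h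
        have h2 : ((ι j)⁻¹ * ι i) • Q0 = Q0 := by rw [mul_smul, h', inv_smul_smul]
        by_cases h3 : (ι j)⁻¹ * ι i = 1
        · congr 1
          apply hι_inj
          have : ι i = ι j * ((ι j)⁻¹ * ι i) := by group
          rw [this, h3, mul_one]
        · exact absurd (hL1 _ ((P : Subgroup G).mul_mem ((P : Subgroup G).inv_mem (hιP j))
            (hιP i)) h3 Q0 h2) hQ0
  have he0_bij : Function.Bijective e0 := by
    apply he0_inj.bijective_of_nat_card_le
    rw [hsyl, Nat.card_eq_fintype_card, Fintype.card_option, ZMod.card]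
  set e : Option (ZMod p) ≃ Sylow p G := Equiv.ofBijective e0 he0_bij with he
  have he_none : e none = P := rfl
  have he_some : ∀ i, e (some i) = ι i • Q0 := fun i => rfl
  -- the homomorphism
  set φ : G →* Equiv.Perm (Option (ZMod p)) :=
    (e.symm.permCongrHom).toMonoidHom.comp (MulAction.toPermHom G (Sylow p G)) with hφ
  have hφ_apply : ∀ g o, e (φ g o) = g • e o := by
    intro g o
    simp [hφ, Equiv.permCongrHom]
  have hQ0e : e (some 0) = Q0 := by rw [he_some, hι0, one_smul]
  have hφ_u : φ u = Uperm p := by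
    refine Equiv.ext fun o => e.injective ?_
    rw [hφ_apply]
    cases o with
    | none =>
      show u • P = e (Upow p 1 none)
      rw [Upow_none]; exact hPP u huP
    | some i =>
      show u • (ι i • Q0) = e (Upow p 1 (some i))
      rw [Upow_some, he_some, hι_add, hι1, ← mul_smul]
      congr 1
      simp only [hι]; rw [← pow_succ', pow_succ]
  have hφ_inj : Function.Injective φ := by
    rw [← MonoidHom.ker_eq_bot_iff]
    rcases (MonoidHom.normal_ker φ).eq_bot_or_eq_top with h | h
    · exact h
    · exfalso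
      have hu : u ∈ φ.ker := by rw [h]; trivial
      have h1 : φ u = 1 := hu
      have h2 := hφ_apply u (some 0)
      rw [h1, Equiv.Perm.one_apply, hQ0e] at h2
      exact hQ0 (hL1 u huP hu1 Q0 h2.symm)
  -- stabiliser analysis
  have hstab : ∀ g : G, g • P = P → g • Q0 = Q0 → ∃ a : (ZMod p)ˣ, φ g = Hperm p a := by
    intro g hgP hgQ
    have hgN : g ∈ Subgroup.normalizer ((P : Subgroup G) : Set G) :=
      Sylow.smul_eq_iff_mem_normalizer.mp hgP
    have h1 : g * u * g⁻¹ ∈ (P : Subgroup G) := (Subgroup.mem_normalizer_iff.mp hgN u).mp huP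
    obtain ⟨k, hk⟩ : ∃ k : ℕ, g * u * g⁻¹ = u ^ k := by
      obtain ⟨z, hz⟩ := hgenP u huP hu1 _ h1
      refine ⟨(z % (p : ℤ)).toNat, ?_⟩
      rw [hz, ← zpow_natCast, Int.toNat_of_nonneg (Int.emod_nonneg _ (by exact_mod_cast hp.ne_zero)),
        ← hord, zpow_mod_orderOf]
    have h2 : ∀ n : ℕ, g * u ^ n = u ^ (k * n) * g := by
      intro n
      have : (g * u * g⁻¹) ^ n = g * u ^ n * g⁻¹ := conj_pow
      rw [hk, ← pow_mul] at this
      rw [this]; group
    have h3 : ∀ i : ZMod p, φ g (some i) = some ((k : ZMod p) * i) := by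
      intro i
      apply e.injective
      rw [hφ_apply, he_some, he_some, ← mul_smul]
      show (g * u ^ i.val) • Q0 = _
      rw [h2, mul_smul, hgQ]
      congr 1
      have := hιn (k * i.val)
      rw [Nat.cast_mul, ZMod.natCast_zmod_val] at this
      exact this.symm
    have hk0 : (k : ZMod p) ≠ 0 := by
      intro h0
      have ha := h3 1
      have hb := h3 0
      rw [h0, zero_mul] at ha hb
      have := (φ g).injective (ha.trans hb.symm)
      simp at this
    refine ⟨Units.mk0 (k : ZMod p) hk0, Equiv.ext fun o => ?_⟩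
    cases o with
    | none =>
      apply e.injective; rw [hφ_apply]; exact hgP
    | some i => rw [h3]; rfl
  -- |N(P)| = p * r
  have hN : Nat.card (Subgroup.normalizer ((P : Subgroup G) : Set G)) = p * r := by
    have h1 : Nat.card (Sylow p G) = (Subgroup.normalizer ((P : Subgroup G) : Set G)).index :=
      Sylow.card_eq_index_normalizer P
    have h2 := Subgroup.card_mul_index (Subgroup.normalizer ((P : Subgroup G) : Set G))
    rw [← h1, hsyl, hcard, mul_comm] at h2
    exact Nat.eq_of_mul_eq_mul_left (by omega : 0 < p + 1) h2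
  set K : Subgroup G := MulAction.stabilizer G P ⊓ MulAction.stabilizer G Q0 with hK
  have hKcard : Nat.card K = r := by
    have hstabP : MulAction.stabilizer G P = Subgroup.normalizer ((P : Subgroup G) : Set G) :=
      Sylow.stabilizer_eq_normalizer P
    have hmem : ∀ x : ZMod p × K, ι x.1 * (x.2 : G) ∈ MulAction.stabilizer G P := by
      intro x
      show (ι x.1 * (x.2 : G)) • P = P
      rw [mul_smul]
      have : (x.2 : G) • P = P := x.2.2.1
      rw [this]; exact hPP _ (hιP _)
    have : Nat.card (ZMod p × K) = Nat.card (MulAction.stabilizer G P) := by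
      apply Nat.card_congr
      refine Equiv.ofBijective (fun x => ⟨ι x.1 * (x.2 : G), hmem x⟩) ⟨?_, ?_⟩
      · rintro ⟨i, k⟩ ⟨j, k'⟩ h
        have h' : ι i * (k : G) = ι j * (k' : G) := congrArg Subtype.val h
        have hk : (k : G) • Q0 = Q0 := k.2.2
        have hk' : (k' : G) • Q0 = Q0 := k'.2.2
        have h1 : ι i • Q0 = ι j • Q0 := by
          have := congrArg (fun g => g • Q0) h'
          simp only [mul_smul] at this
          rwa [hk, hk'] at this
        have hij : i = j := by
          have := he0_inj (show e0 (some i) = e0 (some j) from h1)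
          exact Option.some_injective _ this
        subst hij
        have : (k : G) = k' := mul_left_cancel h'
        exact Prod.ext rfl (Subtype.ext this)
      · rintro ⟨g, hg⟩
        have hgP : g • P = P := hg
        have hne : g • Q0 ≠ P := by
          intro h
          apply hQ0
          have h2 : g • Q0 = g • P := h.trans hgP.symm
          exact smul_left_cancel g h2
        obtain ⟨o, ho⟩ := he0_bij.2 (g • Q0)
        cases o with
        | none => exact absurd ho.symm hne
        | some i =>
          have ho' : ι i • Q0 = g • Q0 := ho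
          refine ⟨(i, ⟨(ι i)⁻¹ * g, ?_, ?_⟩), ?_⟩
          · show ((ι i)⁻¹ * g) • P = P
            rw [mul_smul, hgP]; exact hPP _ ((P : Subgroup G).inv_mem (hιP i))
          · show ((ι i)⁻¹ * g) • Q0 = Q0
            rw [mul_smul, ← ho', inv_smul_smul]
          · apply Subtype.ext
            show ι i * ((ι i)⁻¹ * g) = g
            group
    rw [Nat.card_prod, hstabP, hN, Nat.card_eq_fintype_card, ZMod.card] at this
    exact Nat.eq_of_mul_eq_mul_left hp.pos this
  have hstab' : ∀ g : G, g • P = P → g • Q0 = Q0 →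
      ∃ a : (ZMod p)ˣ, a ^ r = 1 ∧ φ g = Hperm p a := by
    intro g hgP hgQ
    obtain ⟨a, ha⟩ := hstab g hgP hgQ
    refine ⟨a, ?_, ha⟩
    have hgK : g ∈ K := ⟨hgP, hgQ⟩
    have h1 : g ^ r = 1 := by
      have := pow_card_eq_one' (G := K) (x := ⟨g, hgK⟩)
      rw [hKcard] at this
      exact congrArg Subtype.val this
    apply Hperm_injective p
    rw [Hperm_pow, ← ha, ← map_pow, h1, map_one, Hperm_one]
  have hHmem : ∀ a : (ZMod p)ˣ, a ^ r = 1 → ∃ g : G, φ g = Hperm p a := by
    have hex : ∀ k : K, ∃ a : (ZMod p)ˣ, a ^ r = 1 ∧ φ (k : G) = Hperm p a :=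
      fun k => hstab' k k.2.1 k.2.2
    choose f hf1 hf2 using hex
    set F : K → {a : (ZMod p)ˣ // a ^ r = 1} := fun k => ⟨f k, hf1 k⟩ with hF
    have hFinj : Function.Injective F := by
      intro k k' h
      have h1 : f k = f k' := congrArg Subtype.val h
      have h2 : φ (k : G) = φ (k' : G) := by rw [hf2, hf2, h1]
      exact Subtype.ext (hφ_inj h2)
    have hFbij : Function.Bijective F := by
      apply hFinj.bijective_of_nat_card_le
      rw [hKcard, Nat.card_eq_fintype_card, Fintype.card_subtype]
      exact IsCyclic.card_pow_eq_one_le hr0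
    intro a ha
    obtain ⟨k, hk⟩ := hFbij.2 ⟨a, ha⟩
    refine ⟨k, ?_⟩
    rw [hf2]; congr 1; exact congrArg Subtype.val hk
  refine ⟨φ, hφ_inj, ⟨⟨u, hφ_u⟩, ?_, ?_, ?_⟩⟩
  · rintro _ ⟨g, rfl⟩ h1 h2
    apply hstab' g
    · have := hφ_apply g none; rw [h1] at this; exact this.symm
    · have := hφ_apply g (some 0); rw [h2, hQ0e] at this; exact this.symm
  · intro a ha; exact hHmem a ha
  · obtain ⟨g, hg⟩ := MulAction.exists_smul_eq G Q0 P
    have hne : g • P ≠ P := fun h => hQ0 (smul_left_cancel g (hg.trans h.symm))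
    obtain ⟨o, ho⟩ := he0_bij.2 (g • P)
    cases o with
    | none => exact absurd ho.symm hne
    | some i =>
      have ho' : ι i • Q0 = g • P := ho
      refine ⟨φ ((ι i)⁻¹ * g), ⟨_, rfl⟩, ?_, ?_⟩
      · apply e.injective
        rw [hφ_apply, hQ0e]
        show ((ι i)⁻¹ * g) • P = Q0
        rw [mul_smul, ← ho', inv_smul_smul]
      · apply e.injective
        rw [hφ_apply, hQ0e]
        show ((ι i)⁻¹ * g) • Q0 = P
        rw [mul_smul, hg]; exact hPP _ ((P : Subgroup G).inv_mem (hιP i))

end Cfsg.Agent.Helper29.Zas
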