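import Mathlib
import Cfsg.Agent.Helper29.Zas.Main
import Cfsg.Agent.Helper29.Zas.Setup

set_option autoImplicit false

namespace Cfsg.Agent.Helper29.Zas

/-- The number of Sylow `p`-subgroups is `p + 1`. -/
theorem card_sylow_eq (p : ℕ) [Fact p.Prime] (r : ℕ) (hr0 : 0 < r) (hr : 2 * r + 1 = p)
    (hnum : ∀ m, m ∣ (p + 1) * r → m % p = 1 → m = 1 ∨ m = p + 1)
    {G : Type*} [Group G] [Finite G] [IsSimpleGroup G]
    (hcard : Nat.card G = (p + 1) * (p * r)) :
    Nat.card (Sylow p G) = p + 1 := by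
  have hp := (Fact.out : p.Prime)
  obtain ⟨P⟩ : Nonempty (Sylow p G) := inferInstance
  have hPcard := card_sylow_sub p r hr0 (by omega) hcard P
  have h1 : Nat.card (Sylow p G) ≡ 1 [MOD p] := card_sylow_modEq_one p G
  have h2 : Nat.card (Sylow p G) ∣ (P : Subgroup G).index := Sylow.card_dvd_index P
  have h3 : (P : Subgroup G).index = (p + 1) * r := by
    have := Subgroup.card_mul_index (P : Subgroup G)
    rw [hPcard, hcard] at this
    have h : p * (P : Subgroup G).index = p * ((p + 1) * r) := by rw [this]; ring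
    exact Nat.eq_of_mul_eq_mul_left hp.pos h
  rw [h3] at h2
  have h4 : Nat.card (Sylow p G) % p = 1 := by
    have := h1; unfold Nat.ModEq at this; rw [this, Nat.mod_eq_of_lt hp.one_lt]
  rcases hnum _ h2 h4 with h | h
  · exfalso
    have hsub : Subsingleton (Sylow p G) := (Nat.card_eq_one_iff_unique.mp h).1
    have hn : (P : Subgroup G).Normal := Sylow.normal_of_subsingleton P
    have hp2 := hp.two_le
    rcases hn.eq_bot_or_eq_top with h' | h'
    · rw [h', Subgroup.card_bot] at hPcard; omega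
    · rw [h', Subgroup.card_top, hcard] at hPcard
      have h5 : p * 1 < (p + 1) * (p * r) := by
        calc p * 1 < (p + 1) * (p * 1) := by nlinarith
          _ ≤ (p + 1) * (p * r) := by
            apply Nat.mul_le_mul_left; apply Nat.mul_le_mul_left; exact hr0
      omega
  · exact h

/-- `Hperm` as a homomorphism. -/
def HpermHom (p : ℕ) [Fact p.Prime] : (ZMod p)ˣ →* Equiv.Perm (Option (ZMod p)) where
  toFun := Hperm p
  map_one' := Hperm_one p
  map_mul' := Hperm_mul p

/-- The Burnside transfer argument: `t` does not centralise the two-point stabiliser when the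
latter is a Sylow subgroup. -/
theorem burnside (p r : ℕ) [Fact p.Prime] (hrp : r.Prime) (hrd : ¬ r ∣ (p + 1) * p)
    {G : Type*} [Group G] [Finite G] [IsSimpleGroup G]
    (hcard : Nat.card G = (p + 1) * (p * r))
    (φ : G →* Equiv.Perm (Option (ZMod p))) (hφ : Function.Injective φ)
    (hR : Zdata p r φ.range)
    (t : Equiv.Perm (Option (ZMod p))) (htR : t ∈ φ.range) (ht1 : t none = some 0)
    (ht2 : t (some 0) = none)
    (A0 : (ZMod p)ˣ) (hA0r : A0 ^ r = 1) (hA01 : A0 ≠ 1) :
    t * Hperm p A0 ≠ Hperm p A0 * t := by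
  intro hcomm
  have hp := (Fact.out : p.Prime)
  have : Fact r.Prime := ⟨hrp⟩
  obtain ⟨k0, hk0⟩ := hR.H_mem A0 hA0r
  have hk0r : k0 ^ r = 1 := hφ (by rw [map_pow, hk0, ← Hperm_pow, hA0r, Hperm_one, map_one])
  have hk01 : k0 ≠ 1 := by
    rintro rfl
    rw [map_one] at hk0
    exact hA01 (Hperm_injective p (by rw [← hk0, Hperm_one]))
  have hord : orderOf k0 = r := orderOf_eq_prime hk0r hk01
  have hpg : IsPGroup r (Subgroup.zpowers k0) :=
    IsPGroup.of_card (n := 1) (by rw [Nat.card_zpowers, hord, pow_one])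
  obtain ⟨Q, hQ⟩ := hpg.exists_le_sylow
  have hQcard : Nat.card (Q : Subgroup G) = r := by
    rw [Sylow.card_eq_multiplicity, hcard, ← mul_assoc,
      Nat.factorization_mul (Nat.mul_ne_zero (by omega) hp.ne_zero) hrp.ne_zero]
    simp [Nat.factorization_eq_zero_of_not_dvd hrd, hrp.factorization_self]
  have hQeq : Subgroup.zpowers k0 = (Q : Subgroup G) := by
    apply Subgroup.eq_of_le_of_card_ge hQ
    rw [hQcard, Nat.card_zpowers, hord]
  have hNC : Subgroup.normalizer ((Q : Subgroup G) : Set G) ≤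
      Subgroup.centralizer ((Q : Subgroup G) : Set G) := by
    intro g hg
    have h1 : g * k0 * g⁻¹ ∈ (Q : Subgroup G) :=
      (Subgroup.mem_normalizer_iff.mp hg k0).mp (by rw [← hQeq]; exact Subgroup.mem_zpowers k0)
    rw [← hQeq] at h1
    obtain ⟨z, hz⟩ := Subgroup.mem_zpowers_iff.mp h1
    suffices hgk : g * k0 = k0 * g by
      rw [Subgroup.mem_centralizer_iff]
      intro x hx
      rw [SetLike.mem_coe, ← hQeq] at hx
      obtain ⟨y, rfl⟩ := Subgroup.mem_zpowers_iff.mp hx
      exact (Commute.zpow_left (show Commute k0 g from hgk.symm) y).eq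
    apply hφ
    rw [map_mul, map_mul, hk0]
    set γ := φ g with hγ
    have hγR : γ ∈ φ.range := ⟨g, rfl⟩
    have h2 : γ * Hperm p A0 * γ⁻¹ = Hperm p (A0 ^ z) := by
      have := congrArg φ hz
      rw [map_zpow, hk0, map_mul, map_mul, map_inv, hk0] at this
      rw [← this]
      exact (map_zpow (HpermHom p) A0 z).symm
    have hB1 : A0 ^ z ≠ 1 := by
      intro h
      rw [h, Hperm_one] at h2
      have : Hperm p A0 = 1 := by
        have h3 : Hperm p A0 = γ⁻¹ * (γ * Hperm p A0 * γ⁻¹) * γ := by group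
        rw [h3, h2]; group
      exact hA01 (Hperm_injective p (by rw [this, Hperm_one]))
    have hfixB : ∀ o : Option (ZMod p), Hperm p (A0 ^ z) o = o → o = none ∨ o = some 0 := by
      intro o ho
      cases o with
      | none => exact Or.inl rfl
      | some x =>
        right
        rw [Hperm_some, Option.some.injEq] at ho
        have h3 : (((A0 ^ z : (ZMod p)ˣ) : ZMod p) - 1) * x = 0 := by
          rw [sub_mul, ho, one_mul, sub_self]
        rcases mul_eq_zero.mp h3 with h | h
        · exfalso; apply hB1; apply Units.ext; simpa [sub_eq_zero] using h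
        · rw [h]
    have hγ1 : Hperm p (A0 ^ z) (γ none) = γ none := by
      rw [← h2]; simp [Equiv.Perm.mul_apply]
    have hγ2 : Hperm p (A0 ^ z) (γ (some 0)) = γ (some 0) := by
      rw [← h2]; simp [Equiv.Perm.mul_apply]
    have hne : γ none ≠ γ (some 0) := fun h => by
      have := γ.injective h; simp at this
    rcases hfixB _ hγ1 with h3 | h3
    · have h4 : γ (some 0) = some 0 := by
        rcases hfixB _ hγ2 with h | h
        · exact absurd (h3.trans h.symm) hne
        · exact h
      obtain ⟨a, -, ha⟩ := hR.stab γ hγR h3 h4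
      rw [ha, Hperm_comm]
    · have h4 : γ (some 0) = none := by
        rcases hfixB _ hγ2 with h | h
        · exact h
        · exact absurd (h3.trans h.symm) hne
      have hti0 : t⁻¹ (some 0) = none := by rw [Equiv.Perm.inv_eq_iff_eq]; exact ht1.symm
      have htin : t⁻¹ none = some 0 := by rw [Equiv.Perm.inv_eq_iff_eq]; exact ht2.symm
      have h5 : t⁻¹ * γ ∈ φ.range := φ.range.mul_mem (φ.range.inv_mem htR) hγR
      obtain ⟨a, -, ha⟩ := hR.stab _ h5 (by simp [Equiv.Perm.mul_apply, h3, hti0])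
        (by simp [Equiv.Perm.mul_apply, h4, htin])
      have h6 : γ = t * Hperm p a := by rw [← ha]; group
      rw [h6, mul_assoc, Hperm_comm, ← mul_assoc, hcomm, mul_assoc]
  have hcompl := MonoidHom.ker_transferSylow_isComplement' Q hNC
  have hcm := hcompl.card_mul_card
  have hp2 := hp.two_le
  have hr2 := hrp.two_le
  rcases (MonoidHom.normal_ker (MonoidHom.transferSylow Q hNC)).eq_bot_or_eq_top with h | h
  · rw [h, Subgroup.card_bot, one_mul, hQcard, hcard] at hcm
    have h8 : 2 * r ≤ (p + 1) * (p * r) :=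
      calc 2 * r ≤ p * r := Nat.mul_le_mul_right r hp2
        _ ≤ (p + 1) * (p * r) := Nat.le_mul_of_pos_left _ (by omega)
    omega
  · rw [h, Subgroup.card_top, hQcard, hcard] at hcm
    have h7 : 0 < (p + 1) * (p * r) := by positivity
    have : (p + 1) * (p * r) * 1 < (p + 1) * (p * r) * r := by
      apply Nat.mul_lt_mul_of_pos_left <;> omega
    omega

/-- Every simple group of order `(p+1)p(p-1)/2` with a valid certificate is isomorphic to the
model group `L0`. -/
theorem iso_L0 (p r a0 n ninv : ℕ) (tests : List (ℕ × ℕ × ℕ × Bool × ℕ)) (excl : List ℕ)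
    [Fact p.Prime] (hr0 : 0 < r) (hr : 2 * r + 1 = p)
    (hchk : allChk p r ninv tests excl = true) (hnumok : numOK p r a0 n ninv tests = true)
    (hsylnum : ∀ m, m ∣ (p + 1) * r → m % p = 1 → m = 1 ∨ m = p + 1)
    (hexcl : excl = [] ∨ (excl = [1] ∧ r.Prime ∧ ¬ r ∣ (p + 1) * p ∧ a0 % p ≠ 1))
    {G : Type*} [Group G] [Finite G] [IsSimpleGroup G]
    (hcard : Nat.card G = (p + 1) * (p * r)) :
    Nonempty (G ≃* L0 p r) := by
  have hp := (Fact.out : p.Prime)
  have hsyl := card_sylow_eq p r hr0 hr hsylnum hcard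
  obtain ⟨φ, hφ, hR⟩ := setup p r hr0 hr hcard hsyl
  have hRL : φ.range = L0 p r := by
    apply R_eq_L0 p r a0 n ninv tests excl hr0 (by omega) hchk hnumok hR
    intro t htR ht1 ht2 k hk A0 hA0
    rcases hexcl with h | ⟨h, hrp, hrd, ha1⟩
    · rw [h] at hk; simp at hk
    · rw [h] at hk
      simp only [List.mem_singleton] at hk
      subst hk
      rw [pow_one]
      obtain ⟨ha0, -⟩ := numOK_spec hnumok
      have hA0r : A0 ^ r = 1 := by
        apply Units.ext
        rw [Units.val_pow_eq_pow_val, hA0]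
        exact (natCast_pow_eq_one_iff p a0 r).mp ha0
      have hA01 : A0 ≠ 1 := by
        intro h1
        apply ha1
        have h2 : ((a0 : ℕ) : ZMod p) = ((1 : ℕ) : ZMod p) := by
          rw [← hA0, h1]; simp
        rw [ZMod.natCast_eq_natCast_iff'] at h2
        rw [h2, Nat.mod_eq_of_lt hp.one_lt]
      exact burnside p r hrp hrd hcard φ hφ hR t htR ht1 ht2 A0 hA0r hA01
  exact ⟨(MonoidHom.ofInjective hφ).trans (MulEquiv.subgroupCongr hRL)⟩

/-- Any two simple groups of order `(p+1)p(p-1)/2` are isomorphic (given a certificate). -/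
theorem iso_of_cert (p r a0 n ninv : ℕ) (tests : List (ℕ × ℕ × ℕ × Bool × ℕ)) (excl : List ℕ)
    [Fact p.Prime] (hr0 : 0 < r) (hr : 2 * r + 1 = p)
    (hchk : allChk p r ninv tests excl = true) (hnumok : numOK p r a0 n ninv tests = true)
    (hsylnum : ∀ m, m ∣ (p + 1) * r → m % p = 1 → m = 1 ∨ m = p + 1)
    (hexcl : excl = [] ∨ (excl = [1] ∧ r.Prime ∧ ¬ r ∣ (p + 1) * p ∧ a0 % p ≠ 1))
    {G : Type*} [Group G] [Finite G] [IsSimpleGroup G]
    (hcard : Nat.card G = (p + 1) * (p * r))
    {G' : Type*} [Group G'] [Finite G'] [IsSimpleGroup G']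
    (hcard' : Nat.card G' = (p + 1) * (p * r)) :
    Nonempty (G ≃* G') := by
  obtain ⟨e⟩ := iso_L0 p r a0 n ninv tests excl hr0 hr hchk hnumok hsylnum hexcl hcard
  obtain ⟨e'⟩ := iso_L0 p r a0 n ninv tests excl hr0 hr hchk hnumok hsylnum hexcl hcard'
  exact ⟨e.trans e'.symm⟩

end Cfsg.Agent.Helper29.Zas
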