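import Mathlib
import Cfsg.Agent.Helper29.Zas.Final

set_option autoImplicit false

namespace Cfsg.Agent.Helper29.Zas

def tests17 : List (ℕ × ℕ × ℕ × Bool × ℕ) :=
  [(1, 1, 0, false, 1), (1, 3, 0, false, 1), (1, 2, 0, false, 1), (1, 6, 0, false, 1), (1, 0, 0, false, 1), (4, 0, 0, false, 1), (1, 1, 2, true, 1), (1, 3, 6, true, 1), (1, 2, 5, true, 2), (2, 0, 0, false, 1), (9, 0, 0, false, 1), (16, 0, 0, false, 1), (1, 1, 2, true, 2), (1, 1, 5, true, 2), (1, 1, 8, true, 2), (1, 1, 10, true, 2)]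

set_option maxRecDepth 100000 in
theorem chk17 : allChk 17 8 6 tests17 [] = true := by decide +kernel

set_option maxRecDepth 100000 in
theorem num17 : numOK 17 8 9 3 6 tests17 = true := by decide +kernel

set_option maxRecDepth 100000 in
theorem syl17 : ∀ m, m ∣ (17 + 1) * 8 → m % 17 = 1 → m = 1 ∨ m = 17 + 1 := by
  intro m hm h
  have hle : m ≤ 144 := Nat.le_of_dvd (by norm_num) hm
  have key : ∀ m, m ≤ 144 → m ∣ 144 → m % 17 = 1 → m = 1 ∨ m = 18 := by decide +kernel
  exact key m hle hm h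

/-- Any two simple groups of order 2448 are isomorphic. -/
theorem iso17 {G : Type*} [Group G] [Finite G] [IsSimpleGroup G] (hcard : Nat.card G = 2448)
    {G' : Type*} [Group G'] [Finite G'] [IsSimpleGroup G'] (hcard' : Nat.card G' = 2448) :
    Nonempty (G ≃* G') :=
  haveI : Fact (Nat.Prime 17) := ⟨by norm_num⟩
  iso_of_cert 17 8 9 3 6 tests17 [] (by norm_num) (by norm_num) chk17 num17 syl17
    (Or.inl rfl) (by rw [hcard]) (by rw [hcard'])

end Cfsg.Agent.Helper29.Zas
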