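import Mathlib
import Cfsg.Agent.Helper12.SL2Card

set_option autoImplicit false

namespace Cfsg.Agent.Helper29.Zas

open Cfsg.Agent.Helper12

/-- `PSL₂(F)` is simple of the expected order for odd `|F| ≥ 5`. -/
theorem psl_simple_card {F : Type*} [Field F] [Fintype F] (q : ℕ) (hF : Fintype.card F = q)
    (hodd : Odd q) (hq : 4 ≤ q) :
    IsSimpleGroup (Matrix.ProjectiveSpecialLinearGroup (Fin 2) F) ∧
      Nat.card (Matrix.ProjectiveSpecialLinearGroup (Fin 2) F) * 2 = q * (q ^ 2 - 1) := by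
  have h2 : (2 : F) ≠ 0 := two_ne_zero_of_odd (by rw [hF]; exact hodd)
  have hcard := psl2_card_odd (F := F) h2
  rw [hF] at hcard
  exact ⟨Matrix.ProjectiveSpecialLinearGroup.rank_two_simple
    (by rw [Nat.card_eq_fintype_card, hF]; exact hq), hcard⟩

end Cfsg.Agent.Helper29.Zas
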